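import Cfsg.Agent.H732.PB.Crit
import Cfsg.Agent.H396.ClFam
import Cfsg.Agent.H396.ParSp2
import Cfsg.Agent.H686.SqPlus

/-!
# Primes dividing the order of no proper parabolic subgroup: classical groups (helper732)

After `H396.ClEngine`, `H396.ClFam`, `H686.SqPlus` (helper396, helper686).
-/

set_option autoImplicit false
set_option linter.unusedSectionVars false

namespace Cfsg.Agent.H732.PB

open Cfsg Cfsg.Agent.H396 Cfsg.Agent.H396.Cl Cfsg.Agent.H436 Cfsg.Agent.OrdDiv Module Matrix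

section Lin

variable {p : ℕ} [hp : Fact p.Prime] {H : Type*} [Group H] [Finite H] {F : Type*} [Field F] [Finite F] [CharP F p]
  {ι : Type*} [Fintype ι] [DecidableEq ι] (τ : H →* Matrix ι ι F)

theorem not_sq_dvd_of {n : ℕ} (h : ¬ p ∣ n) : ¬ p ^ 2 ∣ n := fun h1 => h ((dvd_pow_self p two_ne_zero).trans h1)

/-- **linear groups** -/
theorem crown_lin [Nonempty ι] (hτ : Function.Injective τ) (hPar : Par p (H ⧸ Subgroup.center H)) {u : ℕ}
    (hu : u.Prime) (hup : u ≠ p)
    (hd : ∀ i, 1 ≤ i → i < Fintype.card ι → ¬ u ∣ Nat.card F ^ i - 1)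
    (hdvd : u ∣ Nat.card (H ⧸ Subgroup.center H)) : Crown p u (H ⧸ Subgroup.center H) := by
  refine ⟨hu, hup, hdvd, fun M hM hidx hcon => ?_⟩
  obtain ⟨P, hMP, hP, -, V, hV, hVp, -, hPV⟩ := hPar M hM (not_sq_dvd_of hidx)
  obtain ⟨x, hx, hxP⟩ := exists_order hu (hcon.trans (Subgroup.card_dvd_of_le hMP))
  obtain ⟨Q, hQ, hQp, hQn, -⟩ := exists_pgroup hV hVp hPV
  have hne : fix τ Q ≠ ⊥ := by
    have := exists_fixed τ hQp (W := ⊤) top_ne_bot fun _ _ _ _ => Submodule.mem_top
    rwa [top_inf_eq] at this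
  have htop := fix_ne_top τ hτ hQ
  have hinv : ∀ v ∈ fix τ Q, τ x *ᵥ v ∈ fix τ Q := fun v hv => fix_inv τ (hQn hxP) hv
  have h1 : finrank F (fix τ Q) < Fintype.card ι := by
    have := Submodule.finrank_lt (lt_top_iff_ne_top.2 htop).ne
    rwa [finrank_fintype_fun_eq_card] at this
  have h2 : 0 < finrank F (fix τ Q) := Nat.pos_of_ne_zero fun h2 => hne (Submodule.finrank_eq_zero.1 h2)
  exact false_of_chain τ hτ hu hup hx le_rfl hinv hinv hd h1 (by omega) (by omega)

variable {f : (ι → F) → (ι → F) → F} {σ : F ≃+* F}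

/-- **groups with a form** -/
theorem crown_frm (hι : 3 ≤ Fintype.card ι) (hτ : Function.Injective τ) (hf : Frm f σ)
    (hfH : ∀ g u v, f (τ g *ᵥ u) (τ g *ᵥ v) = f u v)
    (hPar : Par p (H ⧸ Subgroup.center H)) {u : ℕ} (hu : u.Prime) (hup : u ≠ p)
    (hd : ∀ i, 1 ≤ i → i + 1 < Fintype.card ι → ¬ u ∣ Nat.card F ^ i - 1)
    (hdvd : u ∣ Nat.card (H ⧸ Subgroup.center H)) : Crown p u (H ⧸ Subgroup.center H) := by
  have : Nonempty ι := Fintype.card_pos_iff.1 (by omega)
  refine ⟨hu, hup, hdvd, fun M hM hidx hcon => ?_⟩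
  obtain ⟨P, hMP, hP, -, V, hV, hVp, -, hPV⟩ := hPar M hM (not_sq_dvd_of hidx)
  obtain ⟨x, hx, hxP⟩ := exists_order hu (hcon.trans (Subgroup.card_dvd_of_le hMP))
  obtain ⟨Q, hQ, hQp, hQn, -⟩ := exists_pgroup hV hVp hPV
  obtain ⟨R, hR, hRp, -, hRx, hRx'⟩ := exists_isotropic τ hτ hf hfH hQ hQp
  have h1 := finrank_perp hf R
  have h2 : 0 < finrank F R := Nat.pos_of_ne_zero fun h2 => hR (Submodule.finrank_eq_zero.1 h2)
  have h3 := Submodule.finrank_mono hRp
  exact false_of_chain τ hτ hu hup hx hRp (hRx x (hQn hxP)) (hRx' x (hQn hxP)) (d := Fintype.card ι - 1)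
    (fun i h4 h5 => hd i h4 (by omega)) (by omega) (by omega) (by omega)

end Lin

open Cfsg.Agent.H396.ClFam

/-! ### linear groups -/

theorem crown_psl {F : Type} [Field F] [Fintype F] {p n : ℕ} [CharP F p] (hn : 3 ≤ n)
    (h6 : ¬ (Fintype.card F = 2 ∧ n = 6)) : ∃ u, Crown p u (Matrix.ProjectiveSpecialLinearGroup (Fin n) F) := by
  have := Fact.mk (CharP.char_is_prime F p)
  obtain ⟨k, rfl⟩ : ∃ k, n = k + 1 := ⟨n - 1, by omega⟩
  have hPar : Par p (Matrix.ProjectiveSpecialLinearGroup (Fin (k + 1)) F) := (CommTab.hasCG_PSL k (by omega)).par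
  have hq : 2 ≤ Fintype.card F := Fintype.one_lt_card
  obtain ⟨u, hu⟩ := exists_prim hq hn h6
  have hc : den (.psl (k + 1) (Fintype.card F)) * Nat.card (Matrix.ProjectiveSpecialLinearGroup (Fin (k + 1)) F) =
      num (.psl (k + 1) (Fintype.card F)) := by
    have h := S0243.result (F := F) rfl (k + 1) (by omega)
    rw [Fin.prod_univ_eq_prod_range (fun i => Fintype.card F ^ (k + 1) - Fintype.card F ^ i) (k + 1), ← prod_list] at h
    change Nat.gcd (k + 1) (Fintype.card F - 1) * (Fintype.card F - 1) * _ = glN (k + 1) (Fintype.card F)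
    rw [mul_assoc]
    exact h
  refine ⟨u, crown_lin (slToMat (k + 1) F) ?_ hPar hu.prime (Prim.ne_of_dvd hu char_dvd) ?_ ?_⟩
  · intro a b h
    apply Subtype.ext
    exact h
  · intro i h1 h2 h3
    rw [Fintype.card_fin] at h2
    rw [Nat.card_eq_fintype_card] at h3
    refine hu.not_dvd_sub (fun h4 => ?_) h3
    have := Nat.le_of_dvd (by omega) h4
    omega
  · exact psl_prim le_rfl hn hc hu

/-! ### symplectic groups -/

theorem par_psp {F : Type} [Field F] [Fintype F] {m p : ℕ} [CharP F p] (hm : 2 ≤ m)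
    (h3 : m = 2 → 3 ≤ Fintype.card F) : Par p (PSp m F) := by
  have := Fact.mk (CharP.char_is_prime F p)
  by_cases hm2 : m = 2
  · exact (CommTab.hasCG_PSp hm (h3 hm2)).par
  · exact ParSp2.par_PSp (by omega)

theorem crown_psp {F : Type} [Field F] [Fintype F] {m p : ℕ} [CharP F p] (hm : 2 ≤ m)
    (h3 : m = 2 → 3 ≤ Fintype.card F) (h6 : ¬ (Fintype.card F = 2 ∧ m = 3)) : ∃ u, Crown p u (PSp m F) := by
  have := Fact.mk (CharP.char_is_prime F p)
  have hPar : Par p (PSp m F) := par_psp hm h3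
  have hq : 2 ≤ Fintype.card F := Fintype.one_lt_card
  obtain ⟨u, hu⟩ := exists_prim (e := 2 * m) hq (by omega) (by omega)
  have hc : den (.psp m (Fintype.card F)) * Nat.card (PSp m F) = num (.psp m (Fintype.card F)) := by
    have h1 := S0245.result (F := F) rfl m
    have h2 := S0246.result (F := F) rfl m (by omega)
    have h3 := Subgroup.card_eq_card_quotient_mul_card_subgroup
      (Subgroup.center (Matrix.symplecticGroup (Fin m) F))
    rw [← prod_list (fun i => Fintype.card F ^ (2 * (i + 1)) - 1)] at h1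
    rw [h1, h2] at h3
    change Nat.gcd 2 (Fintype.card F - 1) * Nat.card (PSp m F) = Fintype.card F ^ (m ^ 2) * prB (Fintype.card F) m
    rw [mul_comm]
    exact h3.symm
  refine ⟨u, crown_frm (f := spForm m F) (σ := RingEquiv.refl F) (Matrix.symplecticGroup (Fin m) F).subtype ?_ ?_
    frm_sp ?_ hPar hu.prime (Prim.ne_of_dvd hu char_dvd) ?_ ?_⟩
  · rw [Fintype.card_sum, Fintype.card_fin]; omega
  · exact Subtype.val_injective
  · intro g u v
    unfold spForm
    have h1 := (SymplecticGroup.mem_iff').1 g.2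
    show (g : Matrix _ _ F) *ᵥ u ⬝ᵥ (Matrix.J (Fin m) F *ᵥ ((g : Matrix _ _ F) *ᵥ v)) = _
    rw [← vecMul_transpose, ← dotProduct_mulVec, mulVec_mulVec, mulVec_mulVec, h1]
  · intro i h1 h2 h3
    rw [Fintype.card_sum, Fintype.card_fin] at h2
    rw [Nat.card_eq_fintype_card] at h3
    refine hu.not_dvd_sub (fun h4 => ?_) h3
    have := Nat.le_of_dvd (by omega) h4
    omega
  · exact psp_prim m (by omega) le_rfl dvd_rfl (by omega) hc hu

/-! ### unitary groups -/

open Cfsg.Agent.LieClassical.HermBasic in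
theorem crown_psu {F : Type} [Field F] [Fintype F] {n q p : ℕ} [CharP F p] (hF : Fintype.card F = q ^ 2)
    (hn : 4 ≤ n) (h4 : ¬ (q = 2 ∧ n = 4)) : ∃ u, Crown p u (PSU n F q) := by
  have hp := CharP.char_is_prime F p
  have := Fact.mk hp
  have hPar : Par p (PSU n F q) := (CommTab.hasCG_PSU hF hn).par
  have hq : 2 ≤ q := two_le hF
  have hpq : p ∣ q := hp.dvd_of_dvd_pow (by rw [← hF]; exact char_dvd)
  have hc : den (.psu n q) * Nat.card (PSU n F q) = num (.psu n q) := by
    have h := S0280.result hF n (by omega)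
    rw [← prod_list] at h
    change Nat.gcd n (q + 1) * (q + 1) * _ = q ^ (n * (n - 1) / 2) * prU q n
    have h2 : prU q n = ((List.range n).map fun i => if Even i then q ^ (i + 1) + 1 else q ^ (i + 1) - 1).prod := by
      unfold prU
      congr 1
      apply List.map_congr_left
      intro i _
      by_cases h : Even i
      · rw [if_pos h, if_pos]
        rw [Nat.beq_eq]
        exact Nat.even_iff.1 h
      · rw [if_neg h, if_neg]
        rw [Nat.beq_eq, ← Nat.even_iff]
        exact h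
    rw [h2, mul_assoc]
    exact h
  -- the exponent
  obtain ⟨k, hk, hkn, hk6, hodd⟩ : ∃ k, 3 ≤ k ∧ k ≤ n ∧ (n ≤ k + 1 ∧ ¬ (q = 2 ∧ k = 3)) ∧ (k - 1) % 2 = 0 := by
    rcases Nat.even_or_odd n with h1 | h1
    · obtain ⟨c, hc⟩ := h1
      exact ⟨n - 1, by omega, by omega, ⟨by omega, by omega⟩, by omega⟩
    · obtain ⟨c, hc⟩ := h1
      exact ⟨n, by omega, by omega, ⟨by omega, by omega⟩, by omega⟩
  obtain ⟨u, hu⟩ := exists_prim (q := q) (e := 2 * k) hq (by omega) (by omega)
  refine ⟨u, crown_frm (f := hermForm n F q) (σ := conj hF) ((slToMat n F).comp (SU n F q).subtype) ?_ ?_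
    (frm_herm hF) ?_ hPar hu.prime (Prim.ne_of_dvd hu hpq) ?_ ?_⟩
  · rw [Fintype.card_fin]; omega
  · intro a b h
    apply Subtype.ext
    apply Subtype.ext
    exact h
  · intro g u v
    exact g.2 u v
  · intro i h1 h2 h3
    rw [Fintype.card_fin] at h2
    rw [Nat.card_eq_fintype_card, hF, ← pow_mul] at h3
    refine hu.not_dvd_sub (fun h4 => ?_) h3
    have := Nat.le_of_dvd (by omega) h4
    omega
  · refine psu_prim_aux (i := k - 1) (by omega) (by omega) hc hu ?_
    unfold fU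
    rw [if_pos (by rw [Nat.beq_eq]; exact hodd), show k - 1 + 1 = k by omega]
    refine hu.dvd_add dvd_rfl fun h4 => ?_
    have := Nat.le_of_dvd (by omega) h4
    omega

/-! ### orthogonal groups of minus type -/

section Orth2

open QuadraticMap Cfsg.Agent.LieClassical Cfsg.Agent.LieClassical.OrthCore Cfsg.Agent.LieClassical.OrthForms

theorem crown_po_minus {F : Type} [Field F] [Fintype F] {m p : ℕ} [CharP F p] {a b : F} (hm : 4 ≤ m)
    (hab : ∀ z₁ z₂ : F, z₁ ^ 2 + a * z₁ * z₂ + b * z₂ ^ 2 = 0 → z₁ = 0 ∧ z₂ = 0) :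
    ∃ u, Crown p u (POmega F (quadFormMinus (m - 1) F a b)) := by
  have hp := CharP.char_is_prime F p
  have := Fact.mk hp
  have hPar : Par p (POmega F (quadFormMinus (m - 1) F a b)) :=
    (CommTab.hasCG_PO_minus a b hab (by omega)).par
  have hq : 2 ≤ Fintype.card F := Fintype.one_lt_card
  obtain ⟨u, hu⟩ := exists_prim (e := 2 * m) hq (by omega) (by omega)
  have hc : den (.ominus m (Fintype.card F)) * Nat.card (POmega F (quadFormMinus (m - 1) F a b)) =
      num (.ominus m (Fintype.card F)) := by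
    have h := S0294.result (F := F) rfl m hm a b hab
    rw [← prod_list (fun i => Fintype.card F ^ (2 * (i + 1)) - 1)] at h
    change Nat.gcd 4 (Fintype.card F ^ m + 1) * _ =
      Fintype.card F ^ (m * (m - 1)) * ((Fintype.card F ^ m + 1) * prB (Fintype.card F) (m - 1))
    rw [← mul_assoc (Fintype.card F ^ (m * (m - 1)))]
    exact h
  refine ⟨u, crown_frm (f := fun u v => polar (minusForm (m - 1) F a b) u v) (σ := RingEquiv.refl F)
    (tauO F (quadFormMinus (m - 1) F a b)) ?_
    (tauO_injective _) (frm_polar (nondeg_minusForm (m - 1) F a b hab)) ?_ hPar hu.prime (Prim.ne_of_dvd hu char_dvd)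
    ?_ ?_⟩
  · rw [Fintype.card_sum, Fintype.card_sum, Fintype.card_fin, Fintype.card_fin]; omega
  · intro g u v
    exact polar_tauO (coe_minusForm (m - 1) F a b) g u v
  · intro i h1 h2 h3
    rw [Fintype.card_sum, Fintype.card_sum, Fintype.card_fin, Fintype.card_fin] at h2
    rw [Nat.card_eq_fintype_card] at h3
    refine hu.not_dvd_sub (fun h4 => ?_) h3
    have := Nat.le_of_dvd (by omega) h4
    omega
  · exact ominus_prim' hm hc hu

end Orth2

end Cfsg.Agent.H732.PB
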