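import Cfsg.Agent.H732.PB.Crit
import Cfsg.Agent.H686.SqPlus

/-!
# Primes dividing the order of no proper parabolic subgroup: orthogonal groups of plus type (helper732)

After `H686.SqPlus` (helper686).
-/

set_option autoImplicit false
set_option linter.unusedSectionVars false

namespace Cfsg.Agent.H732.PB

open MulAction QuadraticMap Cfsg.Agent.H396 Cfsg.Agent.H686.SqGen Cfsg.Agent.H686.SqSmall Cfsg.Agent.H436
  Cfsg.Agent.LieClassical.OrthCore Cfsg.Agent.LieClassical.OrthTrans Cfsg.Agent.H686.SqPlus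
open Cfsg.Agent.LieClassical Cfsg.Agent.LieClassical.OrthFinite Cfsg.Agent.LieClassical.OrthForms

variable {F : Type} [Field F] [Fintype F] {p : ℕ} [CharP F p]

theorem Crown.congr {p u : ℕ} {G H : Type*} [Group G] [Group H] (e : G ≃* H) (h : Crown p u G) : Crown p u H := by
  obtain ⟨h1, h2, h3, h4⟩ := h
  refine ⟨h1, h2, by rwa [← Nat.card_congr e.toEquiv], fun P hP hidx hd => ?_⟩
  have hi : (P.comap e.toMonoidHom).index = P.index := Subgroup.index_comap_of_surjective P e.surjective
  refine h4 (P.comap e.toMonoidHom) (fun h5 => hP ?_) (by rwa [hi]) ?_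
  · rw [← Subgroup.index_eq_one, ← hi, h5, Subgroup.index_top]
  · have h5 : Nat.card (P.comap e.toMonoidHom) = Nat.card P :=
      Nat.card_congr (e.toEquiv.subtypeEquiv fun x => Iff.rfl)
    rwa [h5]

theorem crown_po_plus {m : ℕ} (hm : 4 ≤ m) (hex : ¬ (Fintype.card F = 2 ∧ m = 4)) :
    ∃ u, Crown p u (Cfsg.POmega F (Cfsg.quadFormPlus m F)) := by
  classical
  have hp : Fact p.Prime := ⟨CharP.char_is_prime F p⟩
  have hq : Nat.card F = Fintype.card F := Nat.card_eq_fintype_card
  have hq1 : 1 < Fintype.card F := Fintype.one_lt_card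
  -- the model
  have hG : Good (plusForm m F) := by
    apply good_of_finite (nondeg_plusForm m F)
    rw [Module.finrank_fintype_fun_eq_card, Fintype.card_sum, Fintype.card_fin]
    omega
  have hPar : Par p (Cfsg.POmega F (Cfsg.quadFormPlus m F)) := by
    obtain ⟨n, rfl⟩ : ∃ n, m = n + 3 := ⟨m - 3, by omega⟩
    exact (CommTab.hasCG_PO_plus (F := F) n (p := p)).par
  let e : Cfsg.POmega F (Cfsg.quadFormPlus m F) ≃*
      (↥(E (plusForm m F)) ⧸ Subgroup.center ↥(E (plusForm m F))) := by
    rw [← coe_plusForm]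
    exact quotientCenterCongr ((omegaEquiv (plusForm m F)).trans (MulEquiv.subgroupCongr hG.commutator_eq_E))
  have hParE := hPar.of_equiv e
  have hfinT : Finite (Cfsg.POmega F (Cfsg.quadFormPlus m F)) := Finite.of_equiv _ e.symm.toEquiv
  obtain ⟨u, hu⟩ := exists_prim (q := Fintype.card F) (e := 2 * m - 2) hq1 (by omega) (by omega)
  have hpq : p ∣ Fintype.card F := by
    obtain ⟨n, -, hn⟩ := FiniteField.card F p
    rw [hn]
    exact dvd_pow_self p n.2.ne'
  refine ⟨u, Crown.congr e.symm ⟨hu.prime, ?_, ?_, fun N hN hNidx hNd => ?_⟩⟩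
  · rintro rfl
    exact hu.not_dvd hpq
  · rw [← Nat.card_congr e.toEquiv]
    have h1 := S0293.result (F := F) rfl m hm
    have h2 : u ∣ Nat.gcd 4 (Fintype.card F ^ m - 1) * Nat.card (Cfsg.POmega F (Cfsg.quadFormPlus m F)) := by
      rw [h1]
      refine Dvd.dvd.mul_left ?_ _
      refine (hu.dvd (m := 2 * (m - 2 + 1)) ⟨1, by omega⟩).trans ?_
      exact Finset.dvd_prod_of_mem (fun i => Fintype.card F ^ (2 * (i + 1)) - 1)
        (Finset.mem_range.2 (show m - 2 < m - 1 by omega))
    refine (hu.prime.dvd_mul.1 h2).resolve_left fun h3 => ?_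
    have h4 : u ∣ Fintype.card F ^ m - 1 := h3.trans (Nat.gcd_dvd_right _ _)
    have := Nat.le_of_dvd (by omega) ((hu.dvd_iff m).1 h4)
    omega
  · obtain ⟨M, hM, hNM⟩ := (eq_top_or_exists_le_coatom N).resolve_left hN
    have hMidx : ¬ p ∣ M.index := fun h => hNidx (h.trans (Subgroup.index_dvd_of_le hNM))
    have hdiv : u ∣ Nat.card M := hNd.trans (Subgroup.card_dvd_of_le hNM)
    obtain ⟨hidx, V, hV, hVp, -, hMV⟩ := hParE.of_isCoatom hM fun h =>
      hMidx ((dvd_pow_self p two_ne_zero).trans h)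
    obtain ⟨P, hP, hPp, hMP⟩ := exists_pgroup
      (QuotientGroup.mk' (Subgroup.center ↥(E (plusForm m F)))) (QuotientGroup.mk'_surjective _)
      (by rw [QuotientGroup.ker_mk']) hV hVp hMV
    set M' := M.comap (QuotientGroup.mk' (Subgroup.center ↥(E (plusForm m F)))) with hM'
    have hidx' : M'.index = M.index := Subgroup.index_comap_of_surjective M (QuotientGroup.mk'_surjective _)
    obtain ⟨R, hR0, hRinv, hRiso, hRle⟩ := exists_isotropic (p := p) (frm hG.nondeg) hP hPp hMP
    obtain ⟨v, hv, hv0, hQv⟩ := exists_sing hG (p := p) (fun c hc => card_norm m (by omega) c hc)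
      (M := M') (by rw [hidx']; exact hidx) hR0 hRinv
    have hcV : Nat.card (Fin m ⊕ Fin m → F) = Fintype.card F ^ (2 * m) := by
      rw [Nat.card_eq_fintype_card, Fintype.card_fun, Fintype.card_sum, Fintype.card_fin, two_mul]
    have h0 : Nat.card {v : Fin m ⊕ Fin m → F | plusForm m F v = 0} =
        Fintype.card F ^ (2 * m - 1) + Fintype.card F ^ m - Fintype.card F ^ (m - 1) := by
      have h1 : {v : Fin m ⊕ Fin m → F | plusForm m F v = 0} = {v | Cfsg.quadFormPlus m F v = 0} := by
        rw [coe_plusForm]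
      rw [h1]
      exact S0289.result (F := F) rfl m (by omega)
    exact core_u hq hcV hm h0 hu (M := M') hRinv hRle hv hv0 hQv
      (hdiv.trans (card_dvd_comap _ (QuotientGroup.mk'_surjective _) M))

end Cfsg.Agent.H732.PB
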